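import Mathlib
import Cfsg.Agent.Lib.Helper83.SnB.Q8MDefs

/-!
S2986, sub-package [M-SXXo] of [Q8-M] (helper46): `A_E = A_F`, both blocks exceptional and
orthogonal is impossible.
-/

set_option autoImplicit false

namespace Cfsg.Agent.Lib.Helper46.SnB

open Cfsg Cfsg.Agent.Lib.Helper41.SnB Cfsg.Agent.Lib.Helper34.SnB Cfsg.Agent.Lib.Helper83.SnB

universe u

section aux
variable {G : Type u} [Group G]

theorem cl_aux {c u v : G} (h1 : c * u = u * c) (h2 : c * v = v * c) :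
    (c * u) * v * (c * u)⁻¹ * v⁻¹ = u * v * u⁻¹ * v⁻¹ := by
  have cu : Commute c u := h1
  have cv : Commute c v := h2
  have hc : c * (u * v * u⁻¹) = (u * v * u⁻¹) * c :=
    ((cu.mul_right cv).mul_right cu.inv_right).eq
  calc (c * u) * v * (c * u)⁻¹ * v⁻¹ = (c * (u * v * u⁻¹)) * c⁻¹ * v⁻¹ := by group
    _ = ((u * v * u⁻¹) * c) * c⁻¹ * v⁻¹ := by rw [hc]
    _ = u * v * u⁻¹ * v⁻¹ := by group

theorem cr_aux {c u v : G} (h1 : c * u = u * c) (h2 : c * v = v * c) :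
    u * (c * v) * u⁻¹ * (c * v)⁻¹ = u * v * u⁻¹ * v⁻¹ := by
  have cu : Commute c u := h1
  have cv : Commute c v := h2
  have hc : c * (u * v * u⁻¹ * v⁻¹) = (u * v * u⁻¹ * v⁻¹) * c :=
    (((cu.mul_right cv).mul_right cu.inv_right).mul_right cv.inv_right).eq
  calc u * (c * v) * u⁻¹ * (c * v)⁻¹ = (u * c) * v * u⁻¹ * v⁻¹ * c⁻¹ := by group
    _ = (c * u) * v * u⁻¹ * v⁻¹ * c⁻¹ := by rw [h1]
    _ = (c * (u * v * u⁻¹ * v⁻¹)) * c⁻¹ := by group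
    _ = ((u * v * u⁻¹ * v⁻¹) * c) * c⁻¹ := by rw [hc]
    _ = u * v * u⁻¹ * v⁻¹ := by group

theorem inv_comm_of_sq {z u : G} (hz : z * z = 1) :
    z * (z * u * z⁻¹ * u⁻¹) * z⁻¹ = (z * u * z⁻¹ * u⁻¹)⁻¹ := by
  have hz' : z⁻¹ = z := inv_eq_of_mul_eq_one_right hz
  calc z * (z * u * z⁻¹ * u⁻¹) * z⁻¹ = (z * z) * u * z⁻¹ * u⁻¹ * z⁻¹ := by group
    _ = u * z⁻¹ * u⁻¹ * z⁻¹ := by rw [hz, one_mul]
    _ = u * z * u⁻¹ * z⁻¹ := by rw [hz']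
    _ = (z * u * z⁻¹ * u⁻¹)⁻¹ := by group

end aux

theorem pkgSXXo_of (hSI : PkgSI.{u}) : PkgSXXo.{u} := by
  intro G _ _ p _ S₀ E F KE KF zE zF gf oE oF hA xE xF ho
  -- basic facts
  have hzEK : zE ∈ KE := oE.q8.zK
  have hzFK : zF ∈ KF := oF.q8.zK
  have hzEE : zE ∈ E := oE.q8.KX hzEK
  have hzFF : zF ∈ F := oF.q8.KX hzFK
  have hzES : zE ∈ S₀ := oE.q8.KS hzEK
  have hzFS : zF ∈ S₀ := oF.q8.KS hzFK
  have hEN : E ≤ Subgroup.normalizer (E : Set G) := Subgroup.le_normalizer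
  have hFN : F ≤ Subgroup.normalizer (F : Set G) := Subgroup.le_normalizer
  have hQEP : Qb p E ≤ pCore p G := oE.sb.QP
  have hQFP : Qb p F ≤ pCore p G := oF.sb.QP
  have hAQE : Ab p E ≤ Qb p E := oE.bf.AW.trans oE.bf.WQ
  have hAWF : Ab p E ≤ Wb p F := by rw [hA]; exact oF.bf.AW
  have hAV : Ab p E ≤ Vb p G := oE.sb.AV
  have hAF : ∀ a, a ∈ Ab p E → a ∈ Ab p F := fun a ha => by rw [← hA]; exact ha
  -- (1)
  have s1 : ∀ u ∈ Qb p E, zF * u * zF⁻¹ * u⁻¹ ∈ Ab p E := by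
    intro u hu
    have hV : zF * u * zF⁻¹ * u⁻¹ ∈ Vb p G := ho.1 zF hzFK u hu
    have hQ : zF * u * zF⁻¹ * u⁻¹ ∈ Qb p F := oF.b1.PXQ zF hzFF u (hQEP hu)
    have hW : zF * u * zF⁻¹ * u⁻¹ ∈ Wb p F := oF.b1.VQW (Subgroup.mem_inf.mpr ⟨hV, hQ⟩)
    have h := xF.invW _ hW (inv_comm_of_sq oF.q8.zz)
    rw [hA]; exact h
  -- (2a) zF normalizes QE
  have s2a : ∀ u ∈ Qb p E, zF * u * zF⁻¹ ∈ Qb p E := by
    intro u hu
    have h := (Qb p E).mul_mem (hAQE (s1 u hu)) hu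
    have e : zF * u * zF⁻¹ * u⁻¹ * u = zF * u * zF⁻¹ := by group
    rwa [e] at h
  have hzEnQ : ∀ u ∈ Qb p E, zE * u * zE⁻¹ ∈ Qb p E :=
    fun u hu => oE.bf.nQ zE (hEN hzEE) u hu
  have hzEnA : ∀ a ∈ Ab p E, zE * a * zE⁻¹ ∈ Ab p E :=
    fun a ha => oE.bf.nA zE (hEN hzEE) a ha
  -- g₀
  obtain ⟨g₀, hg₀⟩ : ∃ g₀, g₀ = zE * zF := ⟨_, rfl⟩
  have hg₀S : g₀ ∈ S₀ := by rw [hg₀]; exact S₀.mul_mem hzES hzFS
  have s2b : ∀ u ∈ Qb p E, g₀ * u * g₀⁻¹ ∈ Qb p E := by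
    intro u hu
    have h := hzEnQ _ (s2a u hu)
    have e : zE * (zF * u * zF⁻¹) * zE⁻¹ = g₀ * u * g₀⁻¹ := by rw [hg₀]; group
    rwa [e] at h
  have s2c : ∀ a ∈ Ab p E, g₀ * a = a * g₀ := by
    intro a ha
    have h1 : zF * a * zF⁻¹ = a⁻¹ := oF.q8.invA a (hAF a ha)
    have h2 : zE * a⁻¹ * zE⁻¹ = a⁻¹⁻¹ := oE.q8.invA a⁻¹ (inv_mem ha)
    rw [inv_inv] at h2
    calc g₀ * a = zE * (zF * a * zF⁻¹) * zF := by rw [hg₀]; group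
      _ = zE * a⁻¹ * zF := by rw [h1]
      _ = (zE * a⁻¹ * zE⁻¹) * zE * zF := by group
      _ = a * g₀ := by rw [h2, hg₀]; group
  have s2d : ∀ w ∈ Wb p E, g₀ * w * g₀⁻¹ * w⁻¹ ∈ Ab p E := by
    intro w hw
    have h1 : zE * (zF * w * zF⁻¹ * w⁻¹) * zE⁻¹ ∈ Ab p E := hzEnA _ (s1 w (oE.bf.WQ hw))
    have h2 : w * zE * w⁻¹ * zE⁻¹ ∈ Ab p E := Subgroup.commutator_mem_commutator hw hzEE
    have h3 := (Ab p E).mul_mem h1 (inv_mem h2)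
    have e : zE * (zF * w * zF⁻¹ * w⁻¹) * zE⁻¹ * (w * zE * w⁻¹ * zE⁻¹)⁻¹
        = g₀ * w * g₀⁻¹ * w⁻¹ := by rw [hg₀]; group
    rwa [e] at h3
  have s2e : ∀ w ∈ Wb p E, g₀ * w = w * g₀ :=
    coprimeChain (Wb p E) (Ab p E) g₀ (fun h hh => ⟨1, by simpa using oE.b1.W3 h hh⟩)
      (gf.S2 g₀ hg₀S) oE.bf.AW s2c s2d
  have s2f : ∀ u ∈ Qb p E, g₀ * u * g₀⁻¹ * u ∈ Wb p E := by
    intro u hu
    have h1 : zE * (zF * u * zF⁻¹ * u⁻¹) * zE⁻¹ ∈ Wb p E := oE.bf.AW (hzEnA _ (s1 u hu))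
    have h2 : zE * u * zE⁻¹ * u ∈ Wb p E := xE.exc.invQ u hu
    have h3 := (Wb p E).mul_mem h1 h2
    have e : zE * (zF * u * zF⁻¹ * u⁻¹) * zE⁻¹ * (zE * u * zE⁻¹ * u) = g₀ * u * g₀⁻¹ * u := by
      rw [hg₀]; group
    rwa [e] at h3
  -- (3)
  have s3 : ∀ y ∈ Qb p E, y ∈ Qb p F → y ∈ Wb p F := by
    intro y hyE hyF
    apply xF.sqW y hyF
    have h1 : zF * y * zF⁻¹ * y⁻¹ ∈ Wb p F := hAWF (s1 y hyE)
    have h2 : zF * y * zF⁻¹ * y ∈ Wb p F := xF.exc.invQ y hyF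
    have h3 := (Wb p F).mul_mem (inv_mem h1) h2
    have e : (zF * y * zF⁻¹ * y⁻¹)⁻¹ * (zF * y * zF⁻¹ * y) = y * y := by group
    rwa [e] at h3
  have hPnQE : ∀ c ∈ pCore p G, ∀ u ∈ Qb p E, c * u * c⁻¹ ∈ Qb p E :=
    fun c hc u hu => oE.bf.nQ c (oE.sb.PN hc) u hu
  have hPnQF : ∀ c ∈ pCore p G, ∀ v ∈ Qb p F, c * v * c⁻¹ ∈ Qb p F :=
    fun c hc v hv => oF.bf.nQ c (oF.sb.PN hc) v hv
  have βWF : ∀ u ∈ Qb p E, ∀ v ∈ Qb p F, u * v * u⁻¹ * v⁻¹ ∈ Wb p F := by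
    intro u hu v hv
    apply s3
    · have h := (Qb p E).mul_mem hu (hPnQE v (hQFP hv) u⁻¹ (inv_mem hu))
      have e : u * (v * u⁻¹ * v⁻¹) = u * v * u⁻¹ * v⁻¹ := by group
      rwa [e] at h
    · exact (Qb p F).mul_mem (hPnQF u (hQEP hu) v hv) (inv_mem hv)
  have βV : ∀ u ∈ Qb p E, ∀ v ∈ Qb p F, u * v * u⁻¹ * v⁻¹ ∈ Vb p G :=
    fun u hu v hv => xF.WV (βWF u hu v hv)
  -- (4) β ∈ A
  have βA : ∀ u ∈ Qb p E, ∀ v ∈ Qb p F, u * v * u⁻¹ * v⁻¹ ∈ Ab p E := by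
    intro u hu v hv
    have hinv : zF * (u * v * u⁻¹ * v⁻¹) * zF⁻¹ = (u * v * u⁻¹ * v⁻¹)⁻¹ := by
      obtain ⟨a, ha⟩ : ∃ a, a = zF * u * zF⁻¹ * u⁻¹ := ⟨_, rfl⟩
      obtain ⟨w, hw⟩ : ∃ w, w = zF * v * zF⁻¹ * v := ⟨_, rfl⟩
      have haV : a ∈ Vb p G := by rw [ha]; exact hAV (s1 u hu)
      have hwV : w ∈ Vb p G := by rw [hw]; exact xF.WV (xF.exc.invQ v hv)
      have e1 : zF * u * zF⁻¹ = a * u := by rw [ha]; group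
      have e2 : zF * v * zF⁻¹ = w * v⁻¹ := by rw [hw]; group
      have hP_u : u ∈ pCore p G := hQEP hu
      have hP_v : v ∈ pCore p G := hQFP hv
      have hP_vi : v⁻¹ ∈ pCore p G := inv_mem hP_v
      have hP_w : w ∈ pCore p G := gf.VP hwV
      have c1 : a * u = u * a := gf.Vc a haV u hP_u
      have c2 : a * (w * v⁻¹) = (w * v⁻¹) * a := gf.Vc a haV _ (mul_mem hP_w hP_vi)
      have c3 : w * u = u * w := gf.Vc w hwV u hP_u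
      have c4 : w * v⁻¹ = v⁻¹ * w := gf.Vc w hwV _ hP_vi
      have c5 : (u * v * u⁻¹ * v⁻¹) * v⁻¹ = v⁻¹ * (u * v * u⁻¹ * v⁻¹) :=
        gf.Vc _ (βV u hu v hv) _ hP_vi
      have c6 : (u * v * u⁻¹ * v⁻¹)⁻¹ * v⁻¹ = v⁻¹ * (u * v * u⁻¹ * v⁻¹)⁻¹ :=
        (Commute.inv_left (show Commute (u * v * u⁻¹ * v⁻¹) v⁻¹ from c5)).eq
      calc zF * (u * v * u⁻¹ * v⁻¹) * zF⁻¹
          = (zF * u * zF⁻¹) * (zF * v * zF⁻¹) * (zF * u * zF⁻¹)⁻¹ * (zF * v * zF⁻¹)⁻¹ := by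
            group
        _ = (a * u) * (w * v⁻¹) * (a * u)⁻¹ * (w * v⁻¹)⁻¹ := by rw [e1, e2]
        _ = u * (w * v⁻¹) * u⁻¹ * (w * v⁻¹)⁻¹ := cl_aux c1 c2
        _ = u * v⁻¹ * u⁻¹ * v⁻¹⁻¹ := cr_aux c3 c4
        _ = v⁻¹ * (u * v * u⁻¹ * v⁻¹)⁻¹ * v := by group
        _ = (u * v * u⁻¹ * v⁻¹)⁻¹ := by rw [← c6]; group
    have h := xF.invW _ (βWF u hu v hv) hinv
    rw [hA]; exact h
  -- (5) equivariance
  have conjK : ∀ k ∈ KE, ∀ u ∈ Qb p E, ∀ v ∈ Qb p F,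
      k * (u * v * u⁻¹ * v⁻¹) * k⁻¹ = (k * u * k⁻¹) * v * (k * u * k⁻¹)⁻¹ * v⁻¹ := by
    intro k hk u hu v hv
    obtain ⟨d, hd⟩ : ∃ d, d = k * v * k⁻¹ * v⁻¹ := ⟨_, rfl⟩
    have hdV : d ∈ Vb p G := by rw [hd]; exact ho.2 k hk v hv
    have e : k * v * k⁻¹ = d * v := by rw [hd]; group
    have hku : k * u * k⁻¹ ∈ Qb p E := oE.bf.nQ k (hEN (oE.q8.KX hk)) u hu
    have c1 : d * (k * u * k⁻¹) = (k * u * k⁻¹) * d := gf.Vc d hdV _ (hQEP hku)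
    have c2 : d * v = v * d := gf.Vc d hdV v (hQFP hv)
    calc k * (u * v * u⁻¹ * v⁻¹) * k⁻¹
        = (k * u * k⁻¹) * (k * v * k⁻¹) * (k * u * k⁻¹)⁻¹ * (k * v * k⁻¹)⁻¹ := by group
      _ = (k * u * k⁻¹) * (d * v) * (k * u * k⁻¹)⁻¹ * (d * v)⁻¹ := by rw [e]
      _ = _ := cr_aux c1 c2
  have conjL : ∀ l ∈ KF, ∀ u ∈ Qb p E, ∀ v ∈ Qb p F,
      l * (u * v * u⁻¹ * v⁻¹) * l⁻¹ = u * (l * v * l⁻¹) * u⁻¹ * (l * v * l⁻¹)⁻¹ := by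
    intro l hl u hu v hv
    obtain ⟨d, hd⟩ : ∃ d, d = l * u * l⁻¹ * u⁻¹ := ⟨_, rfl⟩
    have hdV : d ∈ Vb p G := by rw [hd]; exact ho.1 l hl u hu
    have e : l * u * l⁻¹ = d * u := by rw [hd]; group
    have hlv : l * v * l⁻¹ ∈ Qb p F := oF.bf.nQ l (hFN (oF.q8.KX hl)) v hv
    have c1 : d * u = u * d := gf.Vc d hdV u (hQEP hu)
    have c2 : d * (l * v * l⁻¹) = (l * v * l⁻¹) * d := gf.Vc d hdV _ (hQFP hlv)
    calc l * (u * v * u⁻¹ * v⁻¹) * l⁻¹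
        = (l * u * l⁻¹) * (l * v * l⁻¹) * (l * u * l⁻¹)⁻¹ * (l * v * l⁻¹)⁻¹ := by group
      _ = (d * u) * (l * v * l⁻¹) * (d * u)⁻¹ * (l * v * l⁻¹)⁻¹ := by rw [e]
      _ = _ := cl_aux c1 c2
  -- (6) B₀
  obtain ⟨B₀, hB₀⟩ : ∃ B₀ : Subgroup G, B₀ = Subgroup.closure
      {g : G | ∃ u ∈ Qb p E, ∃ v ∈ Qb p F, g = u * v * u⁻¹ * v⁻¹} := ⟨_, rfl⟩
  have hB₀A : B₀ ≤ Ab p E := by
    rw [hB₀, Subgroup.closure_le]
    rintro g ⟨u, hu, v, hv, rfl⟩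
    exact βA u hu v hv
  have hB₀N : Nz KE B₀ := by
    intro k hk b hb
    rw [hB₀] at hb ⊢
    refine Subgroup.closure_induction (p := fun x _ => k * x * k⁻¹ ∈ Subgroup.closure
      {g : G | ∃ u ∈ Qb p E, ∃ v ∈ Qb p F, g = u * v * u⁻¹ * v⁻¹}) ?_ ?_ ?_ ?_ hb
    · rintro x ⟨u, hu, v, hv, rfl⟩
      rw [conjK k hk u hu v hv]
      exact Subgroup.subset_closure
        ⟨k * u * k⁻¹, oE.bf.nQ k (hEN (oE.q8.KX hk)) u hu, v, hv, rfl⟩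
    · simp
    · intro x y _ _ hx hy
      have e : k * (x * y) * k⁻¹ = (k * x * k⁻¹) * (k * y * k⁻¹) := by group
      rw [e]; exact mul_mem hx hy
    · intro x _ hx
      have e : k * x⁻¹ * k⁻¹ = (k * x * k⁻¹)⁻¹ := by group
      rw [e]; exact inv_mem hx
  obtain ⟨-, -, -, -, -, -, -, hirr⟩ := oE.cq
  obtain ⟨-, hD⟩ := hirr KE le_rfl (fun l hl _ _ hnl _ => absurd hl hnl)
  rcases hD B₀ hB₀A hB₀N with hbot | htop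
  · -- `Q_E` and `Q_F` commute
    have hcomm : ∀ u ∈ Qb p E, ∀ v ∈ Qb p F, u * v = v * u := by
      intro u hu v hv
      have hmem : u * v * u⁻¹ * v⁻¹ ∈ B₀ := by
        rw [hB₀]; exact Subgroup.subset_closure ⟨u, hu, v, hv, rfl⟩
      rw [hbot, Subgroup.mem_bot] at hmem
      calc u * v = (u * v * u⁻¹ * v⁻¹) * v * u := by group
        _ = v * u := by rw [hmem, one_mul]
    apply xE.noInv g₀ hg₀S s2b
    · intro w hw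
      have e : g₀ * w * g₀⁻¹ * w⁻¹ = 1 := by rw [s2e w hw]; group
      rw [e]; exact one_mem _
    · intro c hc u hu
      obtain ⟨v, hv⟩ : ∃ v, v = zF * c * zF⁻¹ * c⁻¹ := ⟨_, rfl⟩
      obtain ⟨q, hq⟩ : ∃ q, q = zE * c * zE⁻¹ * c⁻¹ := ⟨_, rfl⟩
      obtain ⟨d, hd⟩ : ∃ d, d = zE * v * zE⁻¹ * v⁻¹ := ⟨_, rfl⟩
      have hvQ : v ∈ Qb p F := by rw [hv]; exact oF.b1.PXQ zF hzFF c hc
      have hqQ : q ∈ Qb p E := by rw [hq]; exact oE.b1.PXQ zE hzEE c hc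
      have hdV : d ∈ Vb p G := by rw [hd]; exact ho.2 zE hzEK v hvQ
      have e : g₀ * c * g₀⁻¹ * c⁻¹ = d * v * q := by rw [hd, hv, hq, hg₀]; group
      rw [e]
      have hqu : q * u * q⁻¹ ∈ Qb p E := mul_mem (mul_mem hqQ hu) (inv_mem hqQ)
      have c1 : v * (q * u * q⁻¹) * v⁻¹ = q * u * q⁻¹ := by
        rw [← hcomm _ hqu v hvQ]; group
      have c2 : d * (q * u * q⁻¹) * d⁻¹ = q * u * q⁻¹ := by
        rw [gf.Vc d hdV _ (hQEP hqu)]; group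
      have e2 : (d * v * q) * u * (d * v * q)⁻¹ * u⁻¹ = q * u * q⁻¹ * u⁻¹ := by
        calc (d * v * q) * u * (d * v * q)⁻¹ * u⁻¹
            = d * (v * (q * u * q⁻¹) * v⁻¹) * d⁻¹ * u⁻¹ := by group
          _ = d * (q * u * q⁻¹) * d⁻¹ * u⁻¹ := by rw [c1]
          _ = q * u * q⁻¹ * u⁻¹ := by rw [c2]
      rw [e2]
      exact xE.QZ q hqQ u hu
    · exact s2f
  · -- `B₀ = A`: contradiction
    obtain ⟨k, hk, k', hk', hkk'⟩ := oE.b1.nonab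
    obtain ⟨l, hl, hlact⟩ := hSI S₀ F E KF KE zF zE gf oF oE hA.symm k' hk'
    have hgc : ∀ a ∈ Ab p E, (k * l * k⁻¹ * l⁻¹) * a = a * (k * l * k⁻¹ * l⁻¹) := by
      intro a ha
      rw [← htop, hB₀] at ha
      refine Subgroup.closure_induction
        (p := fun x _ => (k * l * k⁻¹ * l⁻¹) * x = x * (k * l * k⁻¹ * l⁻¹)) ?_ ?_ ?_ ?_ ha
      · rintro x ⟨u, hu, v, hv, rfl⟩
        have hkinv : k⁻¹ ∈ KE := inv_mem hk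
        have hlinv : l⁻¹ ∈ KF := inv_mem hl
        have h1 := conjL l⁻¹ hlinv u hu v hv
        have hv1 : l⁻¹ * v * l⁻¹⁻¹ ∈ Qb p F := oF.bf.nQ _ (hFN (oF.q8.KX hlinv)) v hv
        have h2 := conjK k⁻¹ hkinv u hu _ hv1
        have hu2 : k⁻¹ * u * k⁻¹⁻¹ ∈ Qb p E := oE.bf.nQ _ (hEN (oE.q8.KX hkinv)) u hu
        have h3 := conjL l hl _ hu2 _ hv1
        have h4 := conjK k hk _ hu2 v hv
        have e1 : k * (k⁻¹ * u * k⁻¹⁻¹) * k⁻¹ = u := by group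
        have e2 : l * (l⁻¹ * v * l⁻¹⁻¹) * l⁻¹ = v := by group
        rw [e1] at h4
        rw [e2] at h3
        have hconj : (k * l * k⁻¹ * l⁻¹) * (u * v * u⁻¹ * v⁻¹) * (k * l * k⁻¹ * l⁻¹)⁻¹
            = u * v * u⁻¹ * v⁻¹ := by
          calc (k * l * k⁻¹ * l⁻¹) * (u * v * u⁻¹ * v⁻¹) * (k * l * k⁻¹ * l⁻¹)⁻¹
              = k * (l * (k⁻¹ * (l⁻¹ * (u * v * u⁻¹ * v⁻¹) * l⁻¹⁻¹) * k⁻¹⁻¹) * l⁻¹) * k⁻¹ := by
                group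
            _ = _ := by rw [h1, h2, h3, h4]
        calc (k * l * k⁻¹ * l⁻¹) * (u * v * u⁻¹ * v⁻¹)
            = ((k * l * k⁻¹ * l⁻¹) * (u * v * u⁻¹ * v⁻¹) * (k * l * k⁻¹ * l⁻¹)⁻¹)
                * (k * l * k⁻¹ * l⁻¹) := by group
          _ = _ := by rw [hconj]
      · simp
      · intro x y _ _ hx hy
        exact ((show Commute (k * l * k⁻¹ * l⁻¹) x from hx).mul_right
          (show Commute (k * l * k⁻¹ * l⁻¹) y from hy)).eq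
      · intro x _ hx
        exact (Commute.inv_right (show Commute (k * l * k⁻¹ * l⁻¹) x from hx)).eq
    have hall : ∀ a ∈ Ab p E, a = 1 := by
      intro a ha
      have hkE : ∀ x ∈ KE, ∀ b ∈ Ab p E, x * b * x⁻¹ ∈ Ab p E :=
        fun x hx b hb => oE.bf.nA x (hEN (oE.q8.KX hx)) b hb
      have ha1 : k'⁻¹ * a * k'⁻¹⁻¹ ∈ Ab p E := hkE _ (inv_mem hk') a ha
      have hl1 : l⁻¹ * a * l = k'⁻¹ * a * k' := by
        have h := hlact (k'⁻¹ * a * k'⁻¹⁻¹) (hAF _ ha1)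
        have e : k' * (k'⁻¹ * a * k'⁻¹⁻¹) * k'⁻¹ = a := by group
        rw [e] at h
        calc l⁻¹ * a * l = l⁻¹ * (l * (k'⁻¹ * a * k'⁻¹⁻¹) * l⁻¹) * l := by rw [h]
          _ = k'⁻¹ * a * k' := by group
      have ha2 : k⁻¹ * (k'⁻¹ * a * k') * k⁻¹⁻¹ ∈ Ab p E := by
        have h : k'⁻¹ * a * k' ∈ Ab p E := by simpa using ha1
        exact hkE _ (inv_mem hk) _ h
      have hl2 := hlact _ (hAF _ ha2)
      have hconj : (k * l * k⁻¹ * l⁻¹) * a * (k * l * k⁻¹ * l⁻¹)⁻¹ = a⁻¹ := by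
        calc (k * l * k⁻¹ * l⁻¹) * a * (k * l * k⁻¹ * l⁻¹)⁻¹
            = k * (l * (k⁻¹ * (l⁻¹ * a * l) * k⁻¹⁻¹) * l⁻¹) * k⁻¹ := by group
          _ = k * (l * (k⁻¹ * (k'⁻¹ * a * k') * k⁻¹⁻¹) * l⁻¹) * k⁻¹ := by rw [hl1]
          _ = k * (k' * (k⁻¹ * (k'⁻¹ * a * k') * k⁻¹⁻¹) * k'⁻¹) * k⁻¹ := by rw [hl2]
          _ = (k * k' * k⁻¹ * k'⁻¹) * a * (k * k' * k⁻¹ * k'⁻¹)⁻¹ := by group
          _ = a⁻¹ := by rw [hkk']; exact oE.q8.invA a ha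
      have hcent : (k * l * k⁻¹ * l⁻¹) * a * (k * l * k⁻¹ * l⁻¹)⁻¹ = a := by
        rw [hgc a ha]; group
      have haa : a = a⁻¹ := hcent.symm.trans hconj
      have h3 : a ^ 3 = 1 := oE.b1.W3 a (oE.bf.AW ha)
      have h2 : a * a = 1 := by
        nth_rewrite 2 [haa]
        exact mul_inv_cancel a
      calc a = a ^ 3 * (a * a)⁻¹ := by group
        _ = 1 := by rw [h3, h2]; simp
    have hbotA : Ab p E = ⊥ := (Subgroup.eq_bot_iff_forall _).mpr hall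
    have hc := oE.q8.cardA
    rw [hbotA, Subgroup.card_bot] at hc
    norm_num at hc

end Cfsg.Agent.Lib.Helper46.SnB
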